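import Cfsg.Agent.Lib.LargeExtra.Setting

/-!
General lemmas on an extraspecial subgroup `Q` with `Q/⟨z⟩` irreducible.
-/

set_option autoImplicit false
set_option linter.style.haveILetI false

namespace H52.P8

open Subgroup H95 Cfsg

variable {G : Type*} [Group G] [Finite G]

theorem fix_ne {P N : Subgroup G} (hP : IsPGroup 2 P) (n : ∀ p ∈ P, ∀ x ∈ N, p * x * p⁻¹ ∈ N)
    (d : 2 ∣ Nat.card N) : ∃ x ∈ N, x ≠ 1 ∧ ∀ p ∈ P, p * x = x * p := by
  haveI : Fact (Nat.Prime 2) := ⟨Nat.prime_two⟩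
  let _ : MulAction P N :=
    MulAction.compHom N ((normalizerMonoidHom N).comp (inclusion (le_normalizer_of_conj n)))
  have e : ∀ (q : P) (x : N), ((q • x : N) : G) = q * x * (q : G)⁻¹ := fun _ _ => rfl
  obtain ⟨b, hb, b1⟩ := hP.exists_fixed_point_of_prime_dvd_card_of_fixed_point N d (a := 1)
    (fun q => Subtype.ext (by rw [e]; simp))
  exact ⟨b, b.2, fun e' => b1 (Subtype.ext e'.symm), fun q hq =>
    mul_inv_eq_iff_eq_mul.1 ((e ⟨q, hq⟩ b).symm.trans (congrArg Subtype.val (hb ⟨q, hq⟩)))⟩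

/-- `D` acts irreducibly on `Q/⟨z⟩` -/
structure Irr (Q : Subgroup G) (z : G) (D : Subgroup G) : Prop extends ES Q z where
  Dz : ∀ d ∈ D, d * z = z * d
  DQ : ∀ d ∈ D, ∀ x ∈ Q, d * x * d⁻¹ ∈ Q
  irr : ∀ Y ≤ Q, z ∈ Y → (∀ d ∈ D, ∀ y ∈ Y, d * y * d⁻¹ ∈ Y) → (∀ y ∈ Y, y = 1 ∨ y = z) ∨ Q ≤ Y

theorem Irr.triv {Q D R : Subgroup G} {z : G} (h : Irr Q z D) (hR : IsPGroup 2 R)
    (Rz : ∀ r ∈ R, r * z = z * r) (RQ : ∀ r ∈ R, ∀ x ∈ Q, r * x * r⁻¹ ∈ Q)
    (DR : ∀ d ∈ D, ∀ r ∈ R, d * r * d⁻¹ ∈ R) :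
    ∀ r ∈ R, ∀ x ∈ Q, r * x * r⁻¹ = x ∨ r * x * r⁻¹ = x * z := by
  haveI : Fact (Nat.Prime 2) := ⟨Nat.prime_two⟩
  let Y : Subgroup G :=
    { carrier := {x | x ∈ Q ∧ ∀ r ∈ R, r * x * r⁻¹ = x ∨ r * x * r⁻¹ = x * z}
      one_mem' := ⟨one_mem _, fun r _ => .inl (by simp)⟩
      mul_mem' := fun {x y} hx hy => ⟨mul_mem hx.1 hy.1, fun r hr => by
        rw [show r * (x * y) * r⁻¹ = r * x * r⁻¹ * (r * y * r⁻¹) by group]
        rcases hx.2 r hr with a | a <;> rcases hy.2 r hr with b | b <;> rw [a, b]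
        · exact .inl rfl
        · exact .inr (mul_assoc _ _ _).symm
        · exact .inr (by rw [mul_assoc, ← h.central y hy.1, mul_assoc])
        · exact .inl (by rw [mul_assoc, ← mul_assoc z, ← h.central y hy.1, mul_assoc, h.sq, mul_one])⟩
      inv_mem' := fun {x} hx => ⟨inv_mem hx.1, fun r hr => by
        rw [show r * x⁻¹ * r⁻¹ = (r * x * r⁻¹)⁻¹ by group]
        rcases hx.2 r hr with a | a <;> rw [a]
        · exact .inl rfl
        · exact .inr (by rw [h.central x hx.1, mul_inv_rev, h.toES.inv_eq])⟩ }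
  rcases h.irr Y (fun _ hx => hx.1) ⟨h.mem, fun r hr => .inl (by rw [Rz r hr]; simp)⟩ (fun d hd y hy =>
    ⟨h.DQ d hd y hy.1, fun r hr => by
      have := hy.2 _ (DR _ (inv_mem hd) r hr)
      rw [show r * (d * y * d⁻¹) * r⁻¹ = d * (d⁻¹ * r * d⁻¹⁻¹ * y * (d⁻¹ * r * d⁻¹⁻¹)⁻¹) * d⁻¹ by group]
      refine this.imp (fun a => by rw [a]) fun a => ?_
      rw [a, mul_assoc (d * y), h.Dz _ (inv_mem hd), ← mul_assoc, ← mul_assoc]⟩) with k | k
  · exfalso
    let C := centralizer ({z} : Set G)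
    haveI : ((zpowers z).subgroupOf C).Normal := ⟨fun n hn g => by
      rcases h.toES.mem_zpowers.1 hn with e | e
      · rw [show n = 1 from Subtype.ext e]; simp
      · refine h.toES.mem_zpowers.2 (.inr ?_)
        show g.1 * n.1 * g.1⁻¹ = z
        rw [show n.1 = z from e, mem_cent_iff.1 g.2]; simp⟩
    let π := QuotientGroup.mk' ((zpowers z).subgroupOf C)
    have hπ : ∀ x : C, π x = 1 ↔ x.1 = 1 ∨ x.1 = z := fun x =>
      (QuotientGroup.eq_one_iff x).trans h.toES.mem_zpowers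
    obtain ⟨_, ⟨x, hx, rfl⟩, x1, e⟩ := fix_ne (P := (R.subgroupOf C).map π) (N := (Q.subgroupOf C).map π)
      (hR.comap_subtype.map π) (by
        rintro _ ⟨r, hr, rfl⟩ _ ⟨x, hx, rfl⟩
        exact ⟨r * x * r⁻¹, RQ _ hr _ hx, by simp⟩)
      ((h.toES.isPGroup.comap_subtype.map π).card_eq_or_dvd.resolve_left fun e => by
        obtain ⟨x, hx, y, hy, n⟩ := h.nonab
        have := (card_eq_one.1 e).le (mem_map_of_mem π (x := ⟨x, h.toES.le_centralizer hx⟩) hx)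
        rcases (hπ _).1 this with e | e
        · exact n (by rw [show x = 1 from e]; simp)
        · exact n (by rw [show x = z from e, h.central y hy]))
    refine x1 ((hπ x).2 (k x ⟨hx, fun r hr => ?_⟩))
    have := (hπ (x⁻¹ * (⟨r, mem_cent_iff.2 (Rz r hr)⟩ * x * (⟨r, mem_cent_iff.2 (Rz r hr)⟩ : C)⁻¹))).1 (by
      rw [map_mul, map_mul, map_mul, e _ (mem_map_of_mem π hr), map_inv, map_inv]; group)
    exact this.imp (fun a => (inv_mul_eq_one.1 a).symm) fun a => inv_mul_eq_iff_eq_mul.1 a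
  · exact fun r hr x hx => (k hx).2 r hr

theorem Irr.le {Q D R : Subgroup G} {z : G} (h : Irr Q z D) (h3 : L3 Q z) (hR : IsPGroup 2 R)
    (Rz : ∀ r ∈ R, r * z = z * r) (DR : ∀ d ∈ D, ∀ r ∈ R, d * r * d⁻¹ ∈ R) : R ≤ Q := fun r hr =>
  h3.mem_of_trivial (h.triv hR Rz (fun r hr _ => conj_mem_of_normalizer (h3.norm r (Rz r hr))) DR r hr)

omit [Finite G] in
theorem Irr.map {Q D : Subgroup G} {z : G} (h : Irr Q z D) {G' : Type*} [Group G'] {f : G →* G'}
    (hf : Function.Injective f) : Irr (Q.map f) (f z) (D.map f) where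
  toES := h.toES.map f fun _ _ e => hf (e.trans (map_one f).symm)
  Dz := by rintro _ ⟨d, hd, rfl⟩; rw [← map_mul, h.Dz d hd, map_mul]
  DQ := by
    rintro _ ⟨d, hd, rfl⟩ _ ⟨x, hx, rfl⟩
    exact ⟨_, h.DQ d hd x hx, by simp⟩
  irr Y hY hz hn := by
    refine (h.irr (Y.comap f) (fun y hy => ?_) hz fun d hd y hy => ?_).imp (fun k y hy => ?_) map_le_iff_le_comap.2
    · obtain ⟨x, hx, e⟩ := hY hy
      exact hf e ▸ hx
    · simpa [mem_comap] using hn _ (mem_map_of_mem f hd) _ hy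
    · obtain ⟨x, -, rfl⟩ := hY hy
      exact (k x hy).imp (fun e => by rw [e, map_one]) (congrArg f)

/-- every nontrivial subgroup normalised by `L` contains `L` -/
theorem le_of_norm {Q L N : Subgroup G} {z : G} (h : L3 Q z) (hL : IsSimpleGroup L) (QL : Q ≤ L)
    (nz : ∃ l ∈ L, l * z ≠ z * l) (hN : N ≠ ⊥) (n : ∀ l ∈ L, ∀ x ∈ N, l * x * l⁻¹ ∈ N) : L ≤ N := by
  have key : ∀ {M : Subgroup G} {x : G}, (∀ l ∈ L, ∀ x ∈ M, l * x * l⁻¹ ∈ M) → x ∈ L → x ∈ M → x ≠ 1 →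
      L ≤ M := fun {M x} hM xL xM x1 =>
    subgroupOf_eq_top.1 ((Normal.eq_bot_or_eq_top (⟨fun a ha l => hM l l.2 a ha⟩ :
      (M.subgroupOf L).Normal)).resolve_left fun e => x1 (congrArg Subtype.val (e.le (show ⟨x, xL⟩ ∈ _ from xM))))
  have zL := QL h.mem
  by_cases h2 : 2 ∣ Nat.card N
  · obtain ⟨x, hx, x1, e⟩ := fix_ne h.toES.isPGroup (fun q hq => n q (QL hq)) h2
    exact key n zL ((h.cent x e).resolve_left x1 ▸ hx) h.ne_one
  have ho : Odd (Nat.card N) := Nat.odd_iff.2 (by omega)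
  have f := fun x hx => h.eq_one_of_odd ho (le_normalizer_of_conj fun q hq => n q (QL hq)) (x := x) hx
  have iv := inverts_of_fixedPointFree h.sq (n z zL) f
  obtain ⟨l, hl, nl⟩ := nz
  have : L ≤ centralizer (N : Set G) := key (x := z * (l * z * l⁻¹))
    (fun l hl x hx => mem_centralizer_iff.2 fun y hy => by
      have := mem_centralizer_iff.1 hx _ (n _ (inv_mem hl) y hy)
      calc y * (l * x * l⁻¹) = l * (l⁻¹ * y * l⁻¹⁻¹ * x) * l⁻¹ := by group
        _ = _ := by rw [this]; group)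
    (mul_mem zL (mul_mem (mul_mem hl zL) (inv_mem hl)))
    (mem_centralizer_iff.2 fun y hy => by
      have a := iv _ (n _ (inv_mem hl) y hy)
      have b := iv _ (inv_mem hy)
      symm
      calc z * (l * z * l⁻¹) * y = z * (l * (z * (l⁻¹ * y * l⁻¹⁻¹) * z⁻¹) * l⁻¹) * (l * z * l⁻¹) := by group
        _ = z * y⁻¹ * z⁻¹ * (z * (l * z * l⁻¹)) := by rw [a]; group
        _ = _ := by rw [b, inv_inv])
    fun e => nl (by
      rw [mul_eq_one_iff_inv_eq, h.toES.inv_eq] at e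
      exact mul_inv_eq_iff_eq_mul.1 e.symm)
  exact absurd (eq_bot_iff.2 fun x hx => f x hx (mem_centralizer_iff.1 (this zL) x hx)) hN

end H52.P8
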