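import Cfsg.Agent.Lib.P8.Mod
import Cfsg.Agent.Lib.P8.Gen

/-!
Automorphisms of `Ω₈⁺(2)` of 2-power order centralising `Q`.
-/

set_option autoImplicit false
set_option linter.style.haveILetI false

namespace H52.P8

open Subgroup H12 H52.E8 H95 Cfsg
open scoped Pointwise

noncomputable def zΩ : Ω := ⟨zO, zO_Om⟩

def QΩ : Subgroup Ω := Qg.subgroupOf (Om Q2)

theorem l3Ω : L3 QΩ zΩ := l3.subgroupOf Qg_le

theorem card_QΩ : Nat.card QΩ = 512 := (Nat.card_congr (subgroupOfEquivOfLe Qg_le).toEquiv).trans card_Qg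

theorem irrΩ : Irr QΩ zΩ (centralizer {zΩ}) where
  toES := l3Ω.toES
  Dz _ := mem_cent_iff.1
  DQ d hd _ := conj_mem_of_normalizer (l3Ω.norm d (mem_cent_iff.1 hd))
  irr Y hY hz hn := by
    refine (irr (Y := Y.map (Om Q2).subtype) (map_le_iff_le_comap.2 hY) (mem_map_of_mem _ hz) ?_).imp
      (fun k y hy => (k _ (mem_map_of_mem _ hy)).imp Subtype.ext Subtype.ext) fun k y hy => ?_
    · rintro c hc e _ ⟨y, hy, rfl⟩
      exact mem_map_of_mem _ (hn ⟨c, hc⟩ (mem_cent_iff.2 (Subtype.ext e)) y hy)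
    · obtain ⟨x, hx, e⟩ := k hy
      exact Subtype.ext e ▸ hx

theorem autQ {α : MulAut Ω} (h : α zΩ = zΩ) : ∀ x ∈ QΩ, α x ∈ QΩ := fun x hx => by
  refine irrΩ.le l3Ω (R := QΩ.map α.toMonoidHom) (l3Ω.toES.isPGroup.map _) ?_ ?_ (mem_map_of_mem _ hx)
  · rintro _ ⟨y, hy, rfl⟩
    rw [← h]
    exact (map_mul α _ _).symm.trans ((congrArg α (l3Ω.central y hy)).trans (map_mul α _ _))
  · rintro d hd _ ⟨y, hy, rfl⟩
    refine ⟨_, irrΩ.DQ (α.symm d) (mem_cent_iff.2 (α.injective ?_)) y hy, by simp⟩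
    rw [map_mul, map_mul, α.apply_symm_apply, h, mem_cent_iff.1 hd]

theorem conj_z (α : MulAut Ω) : ∃ g : Ω, α zΩ = g * zΩ * g⁻¹ := by
  haveI : Fact (Nat.Prime 2) := ⟨Nat.prime_two⟩
  obtain ⟨S, hS⟩ := l3Ω.toES.isPGroup.exists_le_sylow
  obtain ⟨x, -, x1, e⟩ := fix_ne (N := QΩ ⊔ S) S.isPGroup' (fun p hp x hx =>
    mul_mem (mul_mem (mem_sup_right hp) hx) (inv_mem (mem_sup_right hp)))
    (dvd_trans (by rw [card_QΩ]; decide) (card_dvd_of_le le_sup_left))
  rw [(l3Ω.cent x fun q hq => e q (hS hq)).resolve_left x1] at e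
  obtain ⟨g, hg⟩ := MulAction.exists_smul_eq Ω S (α • S)
  refine ⟨g, Eq.trans (by group) (congrArg (fun t => g * t * g⁻¹) ((l3Ω.cent (g⁻¹ * α zΩ * g)
    fun q hq => ?_).resolve_left fun h => l3Ω.ne_one (α.injective ?_)))⟩
  · have : g * q * g⁻¹ ∈ (α • S : Sylow 2 Ω) := hg ▸ smul_mem_pointwise_smul _ (MulAut.conj g) _ (hS hq)
    obtain ⟨s, hs, k⟩ := this
    have k2 := congrArg α (e s hs)
    rw [map_mul, map_mul, show α s = g * q * g⁻¹ from k] at k2
    calc q * (g⁻¹ * α zΩ * g) = g⁻¹ * (g * q * g⁻¹ * α zΩ) * g := by group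
      _ = _ := by rw [k2]; group
  · rw [map_one, ← conj_eq_one_iff (a := g⁻¹), inv_inv, h]

theorem conj_inj : Function.Injective (MulAut.conj : Ω →* MulAut Ω) := by
  rw [injective_iff_map_eq_one]
  intro g hg
  rw [← mem_bot, ← center_Ω, mem_center_iff]
  exact fun x => (mul_inv_eq_iff_eq_mul.1 (DFunLike.congr_fun hg x)).symm

theorem card_aut : Nat.card (MulAut Ω) = Nat.card Ω * 6 := by
  rw [← card_mul_index (Inn Ω), show (Inn Ω).index = 6 from card_out_Ω,
    ← Nat.card_congr (MonoidHom.ofInjective conj_inj).toEquiv]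

theorem index_three : (MulAut.conjNormal : O Q2 →* MulAut Ω).range.index = 3 := by
  have hinj : Function.Injective (MulAut.conjNormal : O Q2 →* MulAut Ω) := by
    rw [injective_iff_map_eq_one]
    intro g hg
    have := hyp0.eq_one_or_neg_of_comm nd (by rw [fr]; decide) (g := g) fun u v =>
      mul_inv_eq_iff_eq_mul.1 (congrArg Subtype.val
        (DFunLike.congr_fun hg (⟨_, eich_mem_Om nd gd u v⟩ : Ω)))
    rwa [negO_eq_one_of_two_eq_zero rfl, or_self] at this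
  have c2 := card_mul_index (MulAut.conjNormal : O Q2 →* MulAut Ω).range
  have c3 := card_mul_index (Om Q2)
  rw [index_Om_even nd gd rfl (by rw [fr]; decide)] at c3
  rw [← Nat.card_congr (MonoidHom.ofInjective hinj).toEquiv, card_aut, ← c3] at c2
  have hpos : 0 < Nat.card Ω := Nat.card_pos
  nlinarith

theorem aut_cent {c : MulAut Ω} (h2 : IsPGroup 2 (zpowers c)) (h : ∀ x ∈ QΩ, c x = x) :
    c = 1 ∨ c = MulAut.conj zΩ := by
  haveI : Fact (Nat.Prime 2) := ⟨Nat.prime_two⟩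
  obtain ⟨p, hp⟩ := h2.nonempty_fixed_point_of_prime_not_dvd_card
    (MulAut Ω ⧸ (MulAut.conjNormal : O Q2 →* MulAut Ω).range)
    (by rw [← index_eq_card, index_three]; decide)
  obtain ⟨α, rfl⟩ := QuotientGroup.mk_surjective p
  obtain ⟨w, hw⟩ := (QuotientGroup.eq (a := α) (b := c * α)).1 (hp ⟨c, mem_zpowers c⟩).symm
  obtain ⟨g, hg⟩ := conj_z α⁻¹
  have hβ : (α * MulAut.conj g) zΩ = zΩ := by
    rw [MulAut.mul_apply, MulAut.conj_apply, ← hg]; exact α.apply_symm_apply _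
  generalize hb : α * MulAut.conj g = β at hβ
  have e : MulAut.conjNormal ((g : O Q2)⁻¹ * w * g) = β⁻¹ * c * β := by
    rw [map_mul, map_mul, map_inv, hw, MulAut.conjNormal_val, ← hb]; group
  have ec : c = β * MulAut.conjNormal ((g : O Q2)⁻¹ * w * g) * β⁻¹ := by rw [e]; group
  rcases l3.cent ((g : O Q2)⁻¹ * w * g) fun x hx => (mul_inv_eq_iff_eq_mul.1 (by
    have := congrArg Subtype.val (DFunLike.congr_fun e ⟨x, Qg_le hx⟩)
    rwa [MulAut.conjNormal_apply, MulAut.mul_apply, MulAut.mul_apply, h _ (autQ hβ _ hx), MulAut.inv_def,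
      β.symm_apply_apply] at this)).symm with k | k
  · exact .inl (by rw [ec, k, map_one]; group)
  · refine .inr (MulEquiv.ext fun x => ?_)
    rw [ec, k, show zO = (zΩ : O Q2) from rfl, MulAut.conjNormal_val]
    simp [hβ]

end H52.P8
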