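import Cfsg.Agent.Lib.P8.Aut
import Cfsg.Agent.Lib.LocStruct.SylowIn
import Cfsg.Agent.S0293
import Cfsg.Agent.S0296

/-!
A group of parabolic characteristic 2 with a subgroup `Ω₈⁺(2)` normalised by a Sylow 2-subgroup.
-/

set_option autoImplicit false
set_option linter.style.haveILetI false

namespace H52.P8

open Subgroup H52.E8 H95 H69 Cfsg

variable {G : Type*} [Group G] [Finite G]

theorem Irr.setting {Q D : Subgroup G} {z : G} (h : Irr Q z D) (h3 : L3 Q z) :
    IsOfSymplecticType (generalizedFittingSubgroup (centralizer ({z} : Set G))) ∧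
    IsExtraspecial 2 (generalizedFittingSubgroup (centralizer ({z} : Set G))) ∧
    Nat.card (generalizedFittingSubgroup (centralizer ({z} : Set G))) = Nat.card Q := by
  haveI : Fact (Nat.Prime 2) := ⟨Nat.prime_two⟩
  have hQ := h.toES.le_centralizer
  have nr : ∀ (A : Subgroup (centralizer ({z} : Set G))) [A.Normal], ∀ d ∈ D, ∀ y ∈ A.map (Subgroup.subtype _),
      d * y * d⁻¹ ∈ A.map (Subgroup.subtype _) := by
    rintro A hA d hd _ ⟨y, hy, rfl⟩
    exact mem_map_of_mem _ (hA.conj_mem y hy ⟨d, mem_cent_iff.2 (h.Dz d hd)⟩)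
  have e : generalizedFittingSubgroup (centralizer ({z} : Set G)) = Q.subgroupOf _ :=
    L3.fStar_eq (by rwa [map_subgroupOf_eq_of_le hQ]) (map_le_iff_le_comap.1 (h.le h3
      (H1.isPGroup_pCore.map _) (fun r hr => mem_cent_iff.1 (map_subtype_le _ hr)) (nr _)))
  refine ⟨⟨e ▸ h.toES.isPGroup.comap_subtype, fun A hA hc => ?_⟩, e ▸ (h.toES.subgroupOf hQ).isExtraspecial,
    e ▸ Nat.card_congr (subgroupOfEquivOfLe hQ).toEquiv⟩
  let B := (A.map (Subgroup.subtype _)).map (centralizer ({z} : Set G)).subtype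
  have BQ : B ≤ Q := by
    rintro _ ⟨_, ⟨a, -, rfl⟩, rfl⟩
    exact e.le a.2
  have nB : zpowers z ≤ normalizer (B : Set G) := zpowers_le.2 (mem_normalizer_of_finite fun x hx => by
    rwa [← h.central x (BQ hx), mul_inv_cancel_right])
  rcases h.irr (B ⊔ zpowers z) (sup_le BQ h.toES.zpowers_le) (mem_sup_right (mem_zpowers z)) (fun d hd y hy => by
    obtain ⟨a, ha, b, hb, rfl⟩ := (mem_sup_iff_of_norm nB).1 hy
    rw [show d * (a * b) * d⁻¹ = d * a * d⁻¹ * (d * b * d⁻¹) by group,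
      ((show Commute d z from h.Dz d hd).zpow_right _ |>.eq.trans rfl : d * z ^ hb.choose = _) |> fun k =>
        show d * b * d⁻¹ = b by rw [← hb.choose_spec]; exact mul_inv_eq_iff_eq_mul.2 k]
    exact mul_mem (mem_sup_left (nr _ d hd a ha)) (mem_sup_right hb)) with k | k
  · have : IsCyclic B := isCyclic_of_le (H' := zpowers z) fun y hy =>
      h.toES.mem_zpowers.2 (k y (mem_sup_left hy))
    exact isCyclic_of_injective (((A.equivMapOfInjective _ (Subgroup.subtype_injective _)).trans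
      (equivMapOfInjective _ _ (Subgroup.subtype_injective _))).toMonoidHom) (MulEquiv.injective _)
  · exfalso
    obtain ⟨x, hx, y, hy, n⟩ := h.nonab
    obtain ⟨a, ha, b, hb, rfl⟩ := (mem_sup_iff_of_norm nB).1 (k hx)
    obtain ⟨c, hc', d, hd, rfl⟩ := (mem_sup_iff_of_norm nB).1 (k hy)
    have zc : ∀ u ∈ Q, ∀ b ∈ zpowers z, Commute u b := by
      rintro u hu _ ⟨i, rfl⟩
      exact (show Commute u z from h.central u hu).zpow_right i
    have ac : Commute a c := by
      obtain ⟨_, ⟨a, ha, rfl⟩, rfl⟩ := ha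
      obtain ⟨_, ⟨c, hc', rfl⟩, rfl⟩ := hc'
      exact congrArg (fun t : A => (t.1.1.1 : G)) (hc.is_comm.comm ⟨a, ha⟩ ⟨c, hc'⟩)
    exact n ((ac.mul_right (zc a (BQ ha) d hd)).mul_left (zc _ hy b hb).symm)

theorem large (hG : IsOfParabolicCharacteristic 2 G) {H : Subgroup G} (hidx : ¬ 2 ∣ H.index)
    {ι : Ω →* G} (hι : Function.Injective ι) (LH : ι.range ≤ H) {θ : H →* MulAut Ω}
    (hθ : ∀ h a, ι (θ h a) = h * ι a * (h : G)⁻¹) (ti : Function.Injective θ) : L3 (QΩ.map ι) (ι zΩ) := by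
  haveI : Fact (Nat.Prime 2) := ⟨Nat.prime_two⟩
  have I := irrΩ.map hι
  obtain ⟨T, hT, QT⟩ := exists_isSylowIn_le I.toES.isPGroup ((map_le_range ι QΩ).trans LH)
  have hT' := hT.trans_of_not_dvd le_top (by rwa [relIndex_top_right])
  have Tz : ∀ t ∈ T, t * ι zΩ = ι zΩ * t := by
    obtain ⟨_, ⟨a, rfl⟩, a1, e⟩ := fix_ne (N := ι.range) hT.isP (by
      rintro t ht _ ⟨a, rfl⟩
      exact ⟨_, hθ ⟨t, hT.le ht⟩ a⟩)
      (dvd_trans (by rw [← Nat.card_congr (QΩ.equivMapOfInjective ι hι).toEquiv, card_QΩ]; decide)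
        (card_dvd_of_le (map_le_range ι QΩ)))
    rwa [(l3Ω.cent a fun q hq => hι (by rw [map_mul, map_mul, e _ (QT (mem_map_of_mem ι hq))])).resolve_left
      fun k => a1 (by rw [k, map_one])] at e
  have HQ : ∀ h ∈ H, h * ι zΩ = ι zΩ * h → ∀ x ∈ QΩ.map ι, h * x * h⁻¹ ∈ QΩ.map ι := by
    rintro h hh e _ ⟨x, hx, rfl⟩
    exact ⟨_, autQ (hι (by rw [hθ, e]; simp)) x hx, hθ ⟨h, hh⟩ x⟩
  have L3T : L3 ((QΩ.map ι).subgroupOf T) ⟨ι zΩ, QT I.mem⟩ :=
    { toES := I.toES.subgroupOf QT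
      cent := fun g hg => by
        have := aut_cent (c := θ.comp (inclusion hT.le) g)
          (by rw [← MonoidHom.map_zpowers]; exact (hT.isP.to_subgroup (zpowers g)).map _) fun x hx => hι ((hθ _ _).trans
            (mul_inv_eq_iff_eq_mul.2 (congrArg Subtype.val (hg ⟨_, QT (mem_map_of_mem ι hx)⟩
              (mem_map_of_mem ι hx))).symm))
        refine this.imp (fun e => ?_) fun e => ?_ <;> apply ti.comp (inclusion_injective hT.le)
        · exact e.trans (map_one (θ.comp (inclusion hT.le))).symm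
        · exact e.trans (MulEquiv.ext fun a => hι ((by simp : _ = ι zΩ * ι a * (ι zΩ)⁻¹).trans (hθ ⟨_, _⟩ a).symm))
      norm := fun g hg => mem_normalizer_of_finite fun x hx => HQ g (hT.le g.2) (congrArg Subtype.val hg) x hx }
  have hN : ∀ g, g ∈ normalizer (zpowers (ι zΩ) : Set G) ↔ g * ι zΩ = ι zΩ * g := fun g =>
    ⟨fun hg => mul_inv_eq_iff_eq_mul.1 ((I.toES.mem_zpowers.1 (conj_mem_of_normalizer hg
      (mem_zpowers _))).resolve_left (I.toES.map_conj g).ne_one), fun hg => mem_normalizer_of_finite fun x hx => by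
        rcases I.toES.mem_zpowers.1 hx with rfl | rfl
        · simp
        · rw [hg]; simp⟩
  obtain ⟨P, hP⟩ := hT'.exists_sylow_top
  have hC := hG (zpowers (ι zΩ)) (I.toES.isPGroup.to_le I.toES.zpowers_le) (zpowers_ne_bot.2 I.ne_one)
    ⟨P, fun t ht => (hN t).2 (Tz t (hP ▸ ht))⟩
  generalize normalizer (zpowers (ι zΩ) : Set G) = N at hN hC
  let R := (pCore 2 N).map N.subtype
  have hR : IsPGroup 2 R := H1.isPGroup_pCore.map _
  have Rz : ∀ r ∈ R, r * ι zΩ = ι zΩ * r := fun r hr => (hN r).1 (map_subtype_le _ hr)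
  have Rn : ∀ g, g * ι zΩ = ι zΩ * g → ∀ r ∈ R, g * r * g⁻¹ ∈ R := by
    rintro g hg _ ⟨r, hr, rfl⟩
    exact mem_map_of_mem _ ((inferInstance : (pCore 2 N).Normal).conj_mem r hr ⟨g, (hN g).2 hg⟩)
  have RT : R ≤ T := hT'.le_of_le_normalizer hR le_top (le_normalizer_of_conj fun t ht => Rn t (Tz t ht))
  have self : ∀ g, g * ι zΩ = ι zΩ * g → (∀ r ∈ R, r * g = g * r) → g ∈ R := fun g hg e =>
    mem_map_of_mem _ (hC (x := ⟨g, (hN g).2 hg⟩) fun r hr => Subtype.ext (e _ (mem_map_of_mem _ hr)))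
  have RQ : R ≤ QΩ.map ι := fun r hr => L3T.mem_of_trivial (g := ⟨r, RT hr⟩) fun x hx =>
    (I.triv hR Rz (fun r hr => HQ r (hT.le (RT hr)) (Rz r hr)) (fun d hd => Rn d (I.Dz d hd)) r hr x hx).imp
      Subtype.ext Subtype.ext
  have QR : QΩ.map ι ≤ R := (I.irr R RQ (self _ rfl Rz) fun d hd => Rn d (I.Dz d hd)).elim (fun k q hq =>
    self q (I.central q hq) fun r hr => by
      rcases k r hr with rfl | rfl
      exacts [by simp, (I.central q hq).symm]) id
  exact
    { toES := I.toES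
      cent := fun g hg => I.nondeg g (RQ (self g (hg _ I.mem).symm fun r hr => hg r (RQ hr)))
        fun y hy => (hg y hy).symm
      norm := fun g hg => mem_normalizer_of_finite fun x hx => RQ (Rn g hg x (QR hx)) }

theorem simple_Ω : IsSimpleGroup Ω :=
  haveI := Cfsg.Agent.S0296.result (F := F2) 4 le_rfl
  pomEquiv.symm.isSimpleGroup

theorem card_Ω : Nat.card Ω = 174182400 := by
  have := Cfsg.Agent.S0293.result (F := F2) (q := 2) rfl 4 le_rfl
  rw [Nat.card_congr pomEquiv.toEquiv] at this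
  simp only [Finset.prod_range_succ, Finset.prod_range_zero] at this
  norm_num at this
  omega

theorem fstar {ι : Ω →* G} (hι : Function.Injective ι) (h : L3 (QΩ.map ι) (ι zΩ)) :
    IsSimpleGroup (generalizedFittingSubgroup G) ∧ ι.range ≤ generalizedFittingSubgroup G := by
  haveI := simple_Ω
  haveI hL : IsSimpleGroup ι.range := (MonoidHom.ofInjective hι).symm.isSimpleGroup
  have nz : ∃ l ∈ ι.range, l * ι zΩ ≠ ι zΩ * l := by
    by_contra! k
    exact l3Ω.ne_one (mem_bot.1 (center_Ω ▸ mem_center_iff.2 fun g =>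
      hι (by rw [map_mul, map_mul, k _ ⟨g, rfl⟩])))
  have key := fun N => le_of_norm (N := N) h hL (map_le_range ι QΩ) nz
  have zL : ι zΩ ∈ ι.range := ⟨_, rfl⟩
  haveI : Nontrivial G := ⟨⟨_, _, h.ne_one⟩⟩
  have LX : ι.range ≤ normalClosure (ι.range : Set G) := subset_normalClosure
  have e : generalizedFittingSubgroup G = normalClosure (ι.range : Set G) := by
    refine le_antisymm (sup_le (H23.layer_le_of_centralizer_le (Normal.isSubnormal inferInstance) ?_) ?_)
      (normalClosure_le_normal (key _ H23.fStar_ne_bot fun l _ x hx => H23.fStar_normal.conj_mem x hx l))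
    · refine le_trans (le_of_eq (by_contra fun k => ?_)) bot_le
      obtain ⟨l, hl, n⟩ := nz
      exact n (key _ k (fun l _ x hx => (inferInstance : Normal _).conj_mem x hx l) zL l (LX hl))
    · refine le_trans (le_of_eq (by_contra fun k => ?_)) bot_le
      haveI := H23.isSolvable_fitting (G := G)
      obtain ⟨l, hl, n⟩ := nz
      exact n (congrArg Subtype.val (IsSimpleGroup.comm_iff_isSolvable.2 (Group.isSolvable_of_isSolvable_injective
        (inclusion_injective (key _ k fun l _ x hx => (inferInstance : Normal _).conj_mem x hx l)))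
        ⟨l, hl⟩ ⟨_, zL⟩))
  rw [e]
  generalize hX : normalClosure (ι.range : Set G) = X at LX
  haveI : X.Normal := hX ▸ inferInstance
  haveI : Nontrivial X := ⟨⟨⟨_, LX zL⟩, 1, fun e => h.ne_one (congrArg Subtype.val e)⟩⟩
  refine ⟨⟨fun N hN => or_iff_not_imp_left.2 fun k => ?_⟩, LX⟩
  have : ∀ g : G, ∀ l ∈ ι.range, g * l * g⁻¹ ∈ N.map X.subtype := fun g =>
    key ((N.map X.subtype).comap (MulAut.conj g).toMonoidHom) (fun e => k (eq_bot_iff.2 fun x hx => by
      have := e.le (show g⁻¹ * x * g ∈ _ from mem_comap.2 ⟨x, hx, by simp [mul_assoc]⟩)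
      rwa [mem_bot, ← inv_inv g, inv_inv g⁻¹, conj_eq_one_iff, OneMemClass.coe_eq_one] at this)) (by
      rintro l hl x ⟨y, hy, e⟩
      refine ⟨_, hN.conj_mem y hy ⟨_, ‹X.Normal›.conj_mem l (LX hl) g⟩, ?_⟩
      have : (y : G) = g * x * g⁻¹ := e
      simp [this, mul_assoc])
  have : X ≤ N.map X.subtype := hX.ge.trans <| (closure_le _).2 fun x hx => by
    obtain ⟨l, hl, c⟩ := Group.mem_conjugatesOfSet_iff.1 hx
    obtain ⟨g, rfl⟩ := isConj_iff.1 c
    exact this g l hl
  refine eq_top_iff.2 fun x _ => ?_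
  obtain ⟨y, hy, e⟩ := this x.2
  exact Subtype.ext e ▸ hy

end H52.P8
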