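import Cfsg.Agent.Lib.E8W.Ident
import Cfsg.Agent.Lib.E8W.Cls
import Cfsg.Agent.Lib.LargeExtra.Setting

/-!
The centralizer of a Siegel involution `z` in `O₈⁺(2)`: the normal subgroup `Q ≅ 2^(1+8)`, and
irreducibility of `C_Ω(z)` on `Q/⟨z⟩`.
-/

set_option autoImplicit false

namespace H52.P8

open QuadraticMap H12 H30 H52.E8 H95 Sum

abbrev V : Type := ι → F2
abbrev W4 : Type := Fin 4 → F2

def bs (i : ι) : V := Pi.single i 1

/-- `sieg a c 1 - 1` -/
def nn (a c : ι) (x : V) : V := x c.swap • bs a + x a.swap • bs c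

theorem sub2 (x y : V) : x - y = x + y := funext fun _ => CharTwo.sub_eq_add _ _

theorem add2 (x : V) : x + x = 0 := funext fun _ => CharTwo.add_self_eq_zero _

theorem sieg_nn {a c : ι} (h : c ≠ a.swap) (x : V) : (sieg a c (1 : F2)).1 x = x + nn a c x := by
  rw [sieg_apply h, sub2, add_assoc]; rfl

theorem nn_add (a c : ι) (x y : V) : nn a c (x + y) = nn a c x + nn a c y := by
  simp only [nn, Pi.add_apply, add_smul]; abel

theorem nn_smul (a c : ι) (t : F2) (x : V) : nn a c (t • x) = t • nn a c x := by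
  simp only [nn, Pi.smul_apply, smul_add, smul_smul, smul_eq_mul]

abbrev N : V → V := nn (inl 0) (inl 1)

noncomputable def zO : O Q2 := sieg (inl 0) (inl 1) 1

theorem zO_apply (x : V) : zO.1 x = x + N x := sieg_nn (by decide) x

def cw (x : V) : W4 := ![x (inl 2), x (inl 3), x (inr 2), x (inr 3)]

def em (w : W4) : V := Sum.elim ![0, 0, w 0, w 1] ![0, 0, w 2, w 3]

theorem cw_add (x y : V) : cw (x + y) = cw x + cw y := by
  funext i; fin_cases i <;> rfl

theorem cw_smul (t : F2) (x : V) : cw (t • x) = t • cw x := by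
  funext i; fin_cases i <;> rfl

theorem cw_em (w : W4) : cw (em w) = w := by
  funext i; fin_cases i <;> rfl

theorem vext {x y : V} (h0 : x (inl 0) = y (inl 0)) (h1 : x (inl 1) = y (inl 1))
    (h2 : x (inr 0) = y (inr 0)) (h3 : x (inr 1) = y (inr 1)) (h : cw x = cw y) : x = y := by
  funext i
  rcases i with i | i <;> fin_cases i
  exacts [h0, h1, congrFun h 0, congrFun h 1, h2, h3, congrFun h 2, congrFun h 3]

theorem oext {g h : O Q2} (H : ∀ i, g.1 (bs i) = h.1 (bs i)) : g = h := O.ext fun x => by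
  rw [pi_eq_sum_univ' x, map_sum, map_sum]
  exact Finset.sum_congr rfl fun i _ => by rw [map_smul, map_smul]; exact congrArg _ (H i)

theorem pol (x y : V) : polar Q2 x y = x (inl 0) * y (inr 0) + x (inr 0) * y (inl 0) +
    (x (inl 1) * y (inr 1) + x (inr 1) * y (inl 1)) + (cw x 0 * cw y 2 + cw x 2 * cw y 0) +
    (cw x 1 * cw y 3 + cw x 3 * cw y 1) := by
  rw [polar_QPlus, Fin.sum_univ_four]; rfl

theorem Qv (x : V) : Q2 x = x (inl 0) * x (inr 0) + x (inl 1) * x (inr 1) + cw x 0 * cw x 2 +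
    cw x 1 * cw x 3 := by
  rw [QPlus_apply, Cfsg.quadFormPlus, Fin.sum_univ_four]; rfl

theorem N_ok : ∀ x : V, cw (N x) = 0 ∧ N x (inr 0) = 0 ∧ N x (inr 1) = 0 ∧ N x (inl 0) = x (inr 1) ∧
    N x (inl 1) = x (inr 0) := by decide +kernel

theorem N_zero {x : V} (h0 : x (inr 0) = 0) (h1 : x (inr 1) = 0) : N x = 0 := by
  simp [nn, h0, h1]

/-- the subgroup `Q` -/
def Qg : Subgroup (O Q2) where
  carrier := {g | (∀ x, g.1 (N x) = N x) ∧ ∀ x, N x = 0 → ∃ y, g.1 x = x + N y}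
  one_mem' := ⟨fun _ => rfl, fun x _ => ⟨0, by rw [N_zero rfl rfl, add_zero]; rfl⟩⟩
  mul_mem' := fun {g h} hg hh => ⟨fun x => by rw [O.mul_apply, hh.1, hg.1], fun x hx => by
    obtain ⟨y, e⟩ := hh.2 x hx
    obtain ⟨y', e'⟩ := hg.2 x hx
    exact ⟨y' + y, by rw [O.mul_apply, e, map_add, hg.1, e', N, nn_add, add_assoc]⟩⟩
  inv_mem' := fun {g} hg => by
    have k : ∀ x, (g⁻¹).1 (N x) = N x := fun x => (O.inv_apply_eq_iff g).2 (hg.1 x).symm
    refine ⟨k, fun x hx => ?_⟩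
    obtain ⟨y, e⟩ := hg.2 x hx
    exact ⟨y, (O.inv_apply_eq_iff g).2 (by rw [map_add, hg.1, e, add_assoc, add2, add_zero])⟩

theorem N_comm {c : O Q2} (h : c * zO = zO * c) (x : V) : c.1 (N x) = N (c.1 x) := by
  have := congrArg (fun g : O Q2 => g.1 x) h
  simp only [O.mul_apply, zO_apply, map_add] at this
  exact add_left_cancel this

theorem conj_mem {c g : O Q2} (h : c * zO = zO * c) (hg : g ∈ Qg) : c * g * c⁻¹ ∈ Qg := by
  have h' : c⁻¹ * zO = zO * c⁻¹ := (show Commute c zO from h).inv_left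
  refine ⟨fun x => by rw [O.mul_apply, O.mul_apply, N_comm h', hg.1, N_comm h, O.apply_inv_apply], fun x hx => ?_⟩
  obtain ⟨y, e⟩ := hg.2 _ ((N_comm h' x).symm.trans (by rw [hx, map_zero]))
  exact ⟨c.1 y, by rw [O.mul_apply, O.mul_apply, e, map_add, O.apply_inv_apply, N_comm h]⟩

section
variable {g : O Q2} (hg : g ∈ Qg)
include hg

theorem fix0 : g.1 (bs (inl 0)) = bs (inl 0) := by
  have := hg.1 (bs (inr 1))
  rwa [show N (bs (inr 1)) = bs (inl 0) by decide +kernel] at this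

theorem fix1 : g.1 (bs (inl 1)) = bs (inl 1) := by
  have := hg.1 (bs (inr 0))
  rwa [show N (bs (inr 0)) = bs (inl 1) by decide +kernel] at this

theorem co0 (x : V) : g.1 x (inr 0) = x (inr 0) := by
  have := O.map_B g (bs (inl 0)) x
  rwa [fix0 hg, bs, polar_QPlus_single, polar_QPlus_single] at this

theorem co1 (x : V) : g.1 x (inr 1) = x (inr 1) := by
  have := O.map_B g (bs (inl 1)) x
  rwa [fix1 hg, bs, polar_QPlus_single, polar_QPlus_single] at this

theorem cw0 {x : V} (h0 : x (inr 0) = 0) (h1 : x (inr 1) = 0) : cw (g.1 x) = cw x := by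
  obtain ⟨y, e⟩ := hg.2 x (N_zero h0 h1)
  rw [e, cw_add, (N_ok y).1, add_zero]

theorem cw_g (x : V) :
    cw (g.1 x) = cw x + x (inr 0) • cw (g.1 (bs (inr 0))) + x (inr 1) • cw (g.1 (bs (inr 1))) := by
  have k : ∀ x : V, (x + x (inr 0) • bs (inr 0) + x (inr 1) • bs (inr 1)) (inr 0) = 0 ∧
      (x + x (inr 0) • bs (inr 0) + x (inr 1) • bs (inr 1)) (inr 1) = 0 ∧
      cw (x + x (inr 0) • bs (inr 0) + x (inr 1) • bs (inr 1)) = cw x := by decide +kernel
  have := cw0 hg (k x).1 (k x).2.1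
  rw [(k x).2.2, map_add, map_add, map_smul, map_smul, cw_add, cw_add, cw_smul, cw_smul] at this
  rw [← this]
  funext i
  simp only [Pi.add_apply]
  generalize cw (g.1 x) i = a
  generalize (x (inr 0) • cw (g.1 (bs (inr 0)))) i = b
  generalize (x (inr 1) • cw (g.1 (bs (inr 1)))) i = c
  revert a b c; decide

end

/-- the map `Q → W × W` -/
def φ : Qg →* Multiplicative (W4 × W4) := MonoidHom.mk'
  (fun g => .ofAdd (cw (g.1.1 (bs (inr 0))), cw (g.1.1 (bs (inr 1))))) fun g h => by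
    rw [← ofAdd_add, Prod.mk_add_mk, Subgroup.coe_mul, O.mul_apply, O.mul_apply, cw_g g.2, cw_g g.2 (h.1.1 _),
      co0 h.2, co1 h.2, co0 h.2, co1 h.2]
    simp [bs, add_comm]

theorem φ_eq (g : Qg) : φ g = .ofAdd (cw (g.1.1 (bs (inr 0))), cw (g.1.1 (bs (inr 1)))) := rfl

theorem zO_mem : zO ∈ Qg :=
  ⟨fun x => by rw [zO_apply, N_zero (N_ok x).2.1 (N_ok x).2.2.1, add_zero],
    fun x _ => ⟨x, zO_apply x⟩⟩

theorem zO_ne : zO ≠ 1 := fun h => by
  have := zO_apply (bs (inr 0))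
  rw [h, O.one_apply] at this
  revert this; decide +kernel

theorem zO_sq : zO * zO = 1 := O.ext fun x => by
  rw [O.mul_apply, zO_apply x, map_add, zO_mem.1, zO_apply, add_assoc, add2, add_zero, O.one_apply]

theorem φ_z : φ ⟨zO, zO_mem⟩ = 1 := by
  rw [φ_eq, zO_apply, zO_apply]; decide +kernel

theorem ker_φ {g : O Q2} (hg : g ∈ Qg) (h0 : cw (g.1 (bs (inr 0))) = 0) (h1 : cw (g.1 (bs (inr 1))) = 0) :
    g = 1 ∨ g = zO := by
  have a0 : g.1 (bs (inr 0)) (inr 0) = 1 := co0 hg _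
  have a1 : g.1 (bs (inr 0)) (inr 1) = 0 := co1 hg _
  have b0 : g.1 (bs (inr 1)) (inr 0) = 0 := co0 hg _
  have b1 : g.1 (bs (inr 1)) (inr 1) = 1 := co1 hg _
  have q0 := (O.map_Q g (bs (inr 0))).trans (QPlus_single _)
  have q1 := (O.map_Q g (bs (inr 1))).trans (QPlus_single _)
  have p := (O.map_B g (bs (inr 0)) (bs (inr 1))).trans (polar_single_single (by decide))
  have hw : ∀ x : V, x (inr 0) = 0 → x (inr 1) = 0 → g.1 x = x := fun x x0 x1 => by
    have c0 := (O.map_B g (bs (inr 0)) x).trans (polar_QPlus_single _ _)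
    have c1 := (O.map_B g (bs (inr 1)) x).trans (polar_QPlus_single _ _)
    rw [pol, co0 hg x, co1 hg x, x0, x1] at c0 c1
    rw [a0, a1, h0] at c0
    rw [b0, b1, h1] at c1
    exact vext (by simpa using c0) (by simpa using c1) (co0 hg x) (co1 hg x) (cw0 hg x0 x1)
  rw [Qv, a0, a1, h0] at q0
  rw [Qv, b0, b1, h1] at q1
  rw [pol, a0, a1, b0, b1, h0] at p
  simp only [mul_one, mul_zero, zero_mul, one_mul, add_zero, zero_add, Pi.zero_apply] at q0 q1 p
  have key : ∀ t : F2, g.1 (bs (inr 0)) (inl 1) = t → ∀ h : O Q2, (∀ x, h.1 x = x + t • N x) → g = h :=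
    fun t ht h e => oext fun i => by
      rw [e]
      by_cases i0 : i = inr 0
      · subst i0
        refine vext (q0.trans ?_) (ht.trans ?_) (a0.trans ?_) (a1.trans ?_) (h0.trans ?_) <;>
          (clear ht e; revert t; decide +kernel)
      by_cases i1 : i = inr 1
      · subst i1
        refine vext (((CharTwo.add_eq_zero.1 p).trans ht).trans ?_) (q1.trans ?_) (b0.trans ?_) (b1.trans ?_)
          (h1.trans ?_) <;> (clear ht e; revert t; decide +kernel)
      have x0 : bs i (inr 0) = 0 := Pi.single_eq_of_ne' i0 _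
      have x1 : bs i (inr 1) = 0 := Pi.single_eq_of_ne' i1 _
      rw [hw _ x0 x1, N_zero x0 x1, smul_zero, add_zero]
  by_cases ht : g.1 (bs (inr 0)) (inl 1) = 0
  · exact .inl (key 0 ht 1 fun x => by rw [zero_smul, add_zero, O.one_apply])
  · exact .inr (key 1 (F2_eq_one _ ht) zO fun x => by rw [one_smul, zO_apply])

theorem E_apply {a : ι} (ha : a = inl 0 ∨ a = inl 1) (u : W4) (x : V) : ∃ t : F2,
    (eich Q2 (bs a) (em u)).1 x = x + x a.swap • em u + t • bs a ∧ (cw x = 0 → x a.swap = 0 → t = 0) := by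
  have h : polar Q2 (bs a) (em u) = 0 := by
    rw [bs, polar_QPlus_single]; rcases ha with rfl | rfl <;> rfl
  refine ⟨polar Q2 x (em u) + Q2 (em u) * x a.swap, ?_, fun h1 h2 => ?_⟩
  · rw [eich_apply (QPlus_single a) h, polar_comm _ x (bs a),
      show polar Q2 (bs a) x = _ from polar_QPlus_single a x, sub2, sub2, add_smul]
    unfold bs; abel
  · rw [h2, pol, h1]; simp [em]

theorem E_mem {a : ι} (ha : a = inl 0 ∨ a = inl 1) (u : W4) : eich Q2 (bs a) (em u) ∈ Qg := by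
  refine ⟨fun x => ?_, fun x hx => ?_⟩
  · obtain ⟨t, e, h⟩ := E_apply ha u (N x)
    have : N x a.swap = 0 := by rcases ha with rfl | rfl; exacts [(N_ok x).2.1, (N_ok x).2.2.1]
    rw [e, h (N_ok x).1 this, this, zero_smul, zero_smul, add_zero, add_zero]
  · obtain ⟨t, e, -⟩ := E_apply ha u x
    have h0 := (N_ok x).2.2.2
    rw [hx] at h0
    rcases ha with rfl | rfl
    · exact ⟨t • bs (inr 1), by
        rw [e, show x (inl 0 : ι).swap = 0 from h0.2.symm, zero_smul, add_zero, N, nn_smul]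
        congr 2; decide +kernel⟩
    · exact ⟨t • bs (inr 0), by
        rw [e, show x (inl 1 : ι).swap = 0 from h0.1.symm, zero_smul, add_zero, N, nn_smul]
        congr 2; decide +kernel⟩

theorem cw_E {a : ι} (ha : a = inl 0 ∨ a = inl 1) (u : W4) (x : V) :
    cw ((eich Q2 (bs a) (em u)).1 x) = cw x + x a.swap • u := by
  obtain ⟨t, e, -⟩ := E_apply ha u x
  rw [e, cw_add, cw_add, cw_smul, cw_smul, cw_em,
    show cw (bs a) = 0 by rcases ha with rfl | rfl <;> decide +kernel, smul_zero, add_zero]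

theorem φ_E (u v : W4) : φ (⟨_, E_mem (.inl rfl) u⟩ * ⟨_, E_mem (.inr rfl) v⟩) = .ofAdd (u, v) := by
  rw [map_mul, φ_eq, φ_eq, cw_E (.inl rfl), cw_E (.inl rfl), cw_E (.inr rfl), cw_E (.inr rfl), ← ofAdd_add,
    show cw (bs (inr 0)) = 0 by decide +kernel, show cw (bs (inr 1)) = 0 by decide +kernel]
  simp [bs]

theorem φ_one {g : Qg} (h : φ g = 1) : g.1 = 1 ∨ g.1 = zO :=
  ker_φ g.2 (congrArg (fun p => p.toAdd.1) h) (congrArg (fun p => p.toAdd.2) h)

theorem card_Qg : Nat.card Qg = 512 := by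
  have h1 : Nat.card φ.ker = 2 := by
    rw [Nat.card_eq_two_iff' (1 : φ.ker)]
    refine ⟨⟨_, φ_z⟩, fun h => zO_ne (congrArg (·.1.1) h), fun y hy => ?_⟩
    rcases φ_one y.2 with e | e
    · exact absurd (Subtype.ext (Subtype.ext e)) hy
    · exact Subtype.ext (Subtype.ext e)
  have := Subgroup.card_mul_index φ.ker
  rw [h1, Subgroup.index_ker, MonoidHom.range_eq_top.2 fun p => ⟨_, φ_E p.toAdd.1 p.toAdd.2⟩,
    Subgroup.card_top] at this
  rw [← this]; simp

theorem le_of {Y : Subgroup (O Q2)} (hz : zO ∈ Y) (h : ∀ p, ∃ y : Qg, y.1 ∈ Y ∧ φ y = p) : Qg ≤ Y :=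
  fun g hg => by
    obtain ⟨y, hy, e⟩ := h (φ ⟨g, hg⟩)
    have k := φ_one (g := y⁻¹ * ⟨g, hg⟩) (by rw [map_mul, map_inv, e, inv_mul_cancel])
    have : y.1⁻¹ * g ∈ Y := by
      rcases k with k | k
      exacts [(show y.1⁻¹ * g = 1 from k) ▸ one_mem _, (show y.1⁻¹ * g = zO from k) ▸ hz]
    simpa using mul_mem hy this

theorem zO_Om : zO ∈ Om Q2 := eich_mem_Om nd gd _ _

theorem Qg_le : Qg ≤ Om Q2 := le_of zO_Om fun p =>
  ⟨_, mul_mem (eich_mem_Om nd gd _ _) (eich_mem_Om nd gd _ _), φ_E p.toAdd.1 p.toAdd.2⟩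

theorem cent {g : O Q2} (h : ∀ x ∈ Qg, x * g = g * x) : g = 1 ∨ g = zO := by
  have k : ∀ a, a = inl 0 ∨ a = inl 1 → ∀ w ∈ [inl 2, inl 3, inr 2, inr 3], ∀ x,
      g.1 (nn a w x) = nn a w (g.1 x) := fun a ha w hw x => by
    have h1 : w ≠ a.swap ∧ (1 : F2) • Pi.single w 1 = em (cw (bs w)) := by
      clear x; revert a w; decide +kernel
    have := congrArg (fun g : O Q2 => g.1 x) (h (sieg a w 1) (by rw [sieg, h1.2]; exact E_mem ha _))
    simp only [O.mul_apply, sieg_nn h1.1, map_add] at this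
    exact (add_left_cancel this).symm
  have hw : ∀ w ∈ [inl 2, inl 3, inr 2, inr 3], g.1 (bs w) = bs w ∧ g.1 (bs (inr 0)) w.swap = 0 ∧
      g.1 (bs (inr 1)) w.swap = 0 := fun w hw => by
    have h1 : nn (inl 0) w (bs (inr 0)) = bs w ∧ nn (inl 1) w (bs (inr 1)) = bs w ∧ bs w ≠ 0 := by
      revert w; decide +kernel
    have h2 : ∀ a b c d : F2, a • bs (inl 0) + b • bs w = c • bs (inl 1) + d • bs w →
          a • bs (inl 0) + b • bs w ≠ 0 → a • bs (inl 0) + b • bs w = bs w ∧ a = 0 ∧ c = 0 := by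
      clear h1; revert w; decide +kernel
    have e0 := k _ (.inl rfl) w hw (bs (inr 0))
    have e1 := k _ (.inr rfl) w hw (bs (inr 1))
    rw [h1.1] at e0
    rw [h1.2.1] at e1
    have := h2 _ _ _ _ (e0.symm.trans e1) fun e => O.apply_ne_zero g h1.2.2 (e0.trans e)
    exact ⟨e0.trans this.1, this.2⟩
  have he : ∀ a, a = inl 0 ∨ a = inl 1 → g.1 (bs a) = bs a := fun a ha => by
    have := k a ha (inl 2) (by simp) (bs (inr 2))
    rwa [(hw _ (by simp)).1, show nn a (inl 2) (bs (inr 2)) = bs a by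
      rcases ha with rfl | rfl <;> decide +kernel] at this
  refine ker_φ ⟨fun x => by simp only [nn, map_add, map_smul, he _ (.inl rfl), he _ (.inr rfl)],
    fun x hx => ⟨0, ?_⟩⟩ ?_ ?_
  · have h0 := (N_ok x).2.2.2
    rw [hx] at h0
    rw [N_zero rfl rfl, add_zero]
    conv => congr <;> rw [pi_eq_sum_univ' x]
    rw [map_sum]
    refine Finset.sum_congr rfl fun i _ => ?_
    rw [map_smul]
    have : i = inr 0 ∨ i = inr 1 ∨ (i = inl 0 ∨ i = inl 1) ∨ i ∈ [inl 2, inl 3, inr 2, inr 3] := by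
      rcases i with i | i <;> fin_cases i <;> simp
    rcases this with rfl | rfl | e | e
    · rw [← h0.2]; simp
    · rw [← h0.1]; simp
    · exact congrArg _ (he i e)
    · exact congrArg _ (hw i e).1
  · funext i; fin_cases i
    exacts [(hw (inr 2) (by simp)).2.1, (hw (inr 3) (by simp)).2.1, (hw (inl 2) (by simp)).2.1,
      (hw (inl 3) (by simp)).2.1]
  · funext i; fin_cases i
    exacts [(hw (inr 2) (by simp)).2.2, (hw (inr 3) (by simp)).2.2, (hw (inl 2) (by simp)).2.2,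
      (hw (inl 3) (by simp)).2.2]

theorem central {x : O Q2} (hx : x ∈ Qg) : x * zO = zO * x := O.ext fun y => by
  rw [O.mul_apply, O.mul_apply, zO_apply, zO_apply, map_add, hx.1]
  simp only [nn, swap_inl, co0 hx, co1 hx]

theorem l3 : L3 Qg zO where
  mem := zO_mem
  ne_one := zO_ne
  sq := zO_sq
  central _ := central
  comm x hx y hy := by
    have := φ_one (g := (⟨y, hy⟩ * ⟨x, hx⟩)⁻¹ * (⟨x, hx⟩ * ⟨y, hy⟩)) (by
      rw [map_mul, map_inv, map_mul, map_mul, mul_comm (φ ⟨x, hx⟩), inv_mul_cancel])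
    exact this.imp (fun e => (inv_mul_eq_one.1 e).symm) fun e => inv_mul_eq_iff_eq_mul.1 e
  nondeg x _ h := cent fun y hy => (h y hy).symm
  nonab := by
    by_contra! h
    have e := φ_E 1 0
    generalize (⟨_, E_mem (.inl rfl) 1⟩ * ⟨_, E_mem (.inr rfl) 0⟩ : Qg) = g at e
    have : φ g = 1 := by
      rcases cent fun y hy => h y hy g g.2 with k | k
      exacts [by rw [show g = 1 from Subtype.ext k, map_one], by rw [← φ_z]; exact congrArg _ (Subtype.ext k)]
    exact absurd (e.symm.trans this) (by decide +kernel)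
  cent _ := cent
  norm g h := mem_normalizer_of_conj (fun _ => conj_mem h) fun x hx => by
    simpa using conj_mem (show Commute g zO from h).inv_left hx

def mm (a c : ι) (w : W4) : W4 := cw (nn a c (em w))

theorem irr {Y : Subgroup (O Q2)} (hY : Y ≤ Qg) (hz : zO ∈ Y)
    (hn : ∀ c ∈ Om Q2, c * zO = zO * c → ∀ y ∈ Y, c * y * c⁻¹ ∈ Y) :
    (∀ y ∈ Y, y = 1 ∨ y = zO) ∨ Qg ≤ Y := by
  let P : W4 → W4 → Prop := fun u v => ∃ y ∈ Y, cw (y.1 (bs (inr 0))) = u ∧ cw (y.1 (bs (inr 1))) = v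
  have add : ∀ {u v u' v'}, P u v → P u' v' → P (u + u') (v + v') := by
    rintro _ _ _ _ ⟨y, hy, rfl, rfl⟩ ⟨y', hy', rfl, rfl⟩
    have := map_mul φ ⟨y, hY hy⟩ ⟨y', hY hy'⟩
    exact ⟨_, mul_mem hy hy', congrArg (fun p => p.toAdd.1) this, congrArg (fun p => p.toAdd.2) this⟩
  have cnj : ∀ p ∈ [(inl 0, inr 1), (inl 1, inr 0), (inl 2, inl 3), (inl 2, inr 3), (inr 2, inl 3),
      (inr 2, inr 3)], ∀ y ∈ Y, ∃ y' ∈ Y, ∀ x,
        y'.1 x = y.1 (x + nn p.1 p.2 x) + nn p.1 p.2 (y.1 (x + nn p.1 p.2 x)) := fun p hp y hy => by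
    have h : p.2 ≠ p.1.swap ∧ ∀ x, x + N x + nn p.1 p.2 (x + N x) = x + nn p.1 p.2 x + N (x + nn p.1 p.2 x) ∧
        x = x + nn p.1 p.2 x + nn p.1 p.2 (x + nn p.1 p.2 x) := by
      clear hy; revert p; decide +kernel
    refine ⟨_, hn (sieg p.1 p.2 1) (eich_mem_Om nd gd _ _) (O.ext fun x => ?_) y hy, fun x => ?_⟩
    · rw [O.mul_apply, O.mul_apply, zO_apply, zO_apply, sieg_nn h.1, sieg_nn h.1, (h.2 x).1]
    · rw [O.mul_apply, O.mul_apply, sieg_nn h.1,
        (O.inv_apply_eq_iff _).2 ((h.2 x).2.trans (sieg_nn h.1 _).symm)]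
  have a2 : ∀ u : W4, u + u = 0 := by decide +kernel
  have s0 : ∀ {u v}, P u v → P v 0 := by
    rintro _ _ ⟨y, hy, rfl, rfl⟩
    obtain ⟨y', hy', e⟩ := cnj (inl 0, inr 1) (by simp) y hy
    have k : (∀ x, cw (nn (inl 0) (inr 1) x) = 0) ∧ nn (inl 0) (inr 1) (bs (inr 0)) = bs (inr 1) ∧
      nn (inl 0) (inr 1) (bs (inr 1)) = 0 := by decide +kernel
    have := add ⟨y, hy, rfl, rfl⟩ ⟨y', hy', rfl, rfl⟩
    rwa [e, e, cw_add, cw_add, k.1, k.1, k.2.1, k.2.2, add_zero, add_zero, add_zero, map_add, cw_add, a2,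
      ← add_assoc, a2, zero_add] at this
  have s1 : ∀ {u v}, P u v → P 0 u := by
    rintro _ _ ⟨y, hy, rfl, rfl⟩
    obtain ⟨y', hy', e⟩ := cnj (inl 1, inr 0) (by simp) y hy
    have k : (∀ x, cw (nn (inl 1) (inr 0) x) = 0) ∧ nn (inl 1) (inr 0) (bs (inr 1)) = bs (inr 0) ∧
      nn (inl 1) (inr 0) (bs (inr 0)) = 0 := by decide +kernel
    have := add ⟨y, hy, rfl, rfl⟩ ⟨y', hy', rfl, rfl⟩
    rwa [e, e, cw_add, cw_add, k.1, k.1, k.2.1, k.2.2, add_zero, add_zero, add_zero, map_add, cw_add, a2,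
      ← add_assoc, a2, zero_add] at this
  have s2 : ∀ p ∈ [(inl 2, inl 3), (inl 2, inr 3), (inr 2, inl 3), (inr 2, inr 3)], ∀ u, P u 0 →
      P (mm p.1 p.2 u) 0 := by
    rintro p hp _ ⟨y, hy, rfl, h0⟩
    obtain ⟨y', hy', e⟩ := cnj p (List.mem_cons_of_mem _ (List.mem_cons_of_mem _ hp)) y hy
    have k : (∀ x, cw (nn p.1 p.2 x) = mm p.1 p.2 (cw x)) ∧ nn p.1 p.2 (bs (inr 0)) = 0 ∧
      nn p.1 p.2 (bs (inr 1)) = 0 ∧ mm p.1 p.2 0 = 0 := by clear e; revert p; decide +kernel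
    have := add ⟨y, hy, rfl, h0⟩ ⟨y', hy', rfl, rfl⟩
    rwa [e, e, cw_add, cw_add, k.1, k.1, k.2.1, k.2.2.1, add_zero, add_zero, h0, k.2.2.2, add_zero, add_zero,
      ← add_assoc, a2, zero_add] at this
  have m1 := s2 (inl 2, inl 3) (by simp)
  have m2 := s2 (inl 2, inr 3) (by simp)
  have m3 := s2 (inr 2, inl 3) (by simp)
  have m4 := s2 (inr 2, inr 3) (by simp)
  have all : ∀ w, w ≠ 0 → P w 0 → ∀ t, P t 0 := fun w hw h t => by
    have k : ∀ w : W4, w ≠ 0 → ∃ u ∈ [w, mm (inr 2) (inr 3) w, mm (inr 2) (inl 3) w,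
        mm (inr 2) (inr 3) (mm (inr 2) (inl 3) w)], mm (inl 2) (inr 3) (mm (inl 2) (inl 3) u) = ![1, 0, 0, 0] := by
      decide +kernel
    obtain ⟨u, hu, e⟩ := k w hw
    have h1 : P u 0 := by
      simp only [List.mem_cons, List.not_mem_nil, or_false] at hu
      rcases hu with rfl | rfl | rfl | rfl
      exacts [h, m4 _ h, m3 _ h, m4 _ (m3 _ h)]
    have h2 := e ▸ m2 _ (m1 _ h1)
    have sm : ∀ (c : F2) {x}, P x 0 → P (c • x) 0 := fun c x hx => by
      by_cases hc : c = 0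
      · rw [hc, zero_smul]; simpa only [a2] using add hx hx
      · rwa [F2_eq_one c hc, one_smul]
    have := add (add (sm (t 0) h2) (sm (t 1) (m3 _ h2))) (add (sm (t 2) (m3 _ (m4 _ h2))) (sm (t 3) (m4 _ h2)))
    rwa [a2, show _ + _ = t by clear this; revert t; decide +kernel] at this
  by_cases h : ∃ w, w ≠ 0 ∧ P w 0
  · obtain ⟨w, hw, h⟩ := h
    refine .inr (le_of hz fun p => ?_)
    obtain ⟨y, hy, e1, e2⟩ := add (all w hw h p.toAdd.1) (s1 (all w hw h p.toAdd.2))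
    exact ⟨⟨y, hY hy⟩, hy, by rw [φ_eq, e1, e2, add_zero, zero_add]; rfl⟩
  · push Not at h
    refine .inl fun y hy => ker_φ (hY hy) ?_ ?_ <;> by_contra e
    exacts [h _ e (s0 (s1 ⟨y, hy, rfl, rfl⟩)), h _ e (s0 ⟨y, hy, rfl, rfl⟩)]

end H52.P8
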